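import Cfsg.Agent.H334.Star.Base
import Cfsg.Agent.H334.Sp4.Cent2
import Cfsg.Agent.H334.Sp4.TIso

/-!
# `PSL₂(F)`, `char F = 3`: the centralizers of the elements of order 3 are abelian
-/

set_option autoImplicit false
set_option linter.unusedSectionVars false
set_option linter.unusedVariables false

open Subgroup

namespace Cfsg.Agent.H334.Star

open Cfsg.Agent.H334.Symp Cfsg.Agent.H334.Symp.El Cfsg.Agent.H334.Sp4

theorem psl_two_cent {F : Type*} [Field F] (h3 : (3 : F) = 0) {z : Matrix.ProjectiveSpecialLinearGroup (Fin 2) F}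
    (hz : orderOf z = 3) {g h : Matrix.ProjectiveSpecialLinearGroup (Fin 2) F} (hg : g * z = z * g)
    (hh : h * z = z * h) : g * h = h * g := by
  have h2 : (2 : F) ≠ 0 := by
    intro h
    have : (1 : F) = 0 := by linear_combination h3 - h
    exact one_ne_zero this
  have hz3 : z ^ 3 = 1 := by rw [← hz]; exact pow_orderOf_eq_one z
  have hz1 : z ≠ 1 := by
    rintro rfl
    rw [orderOf_one] at hz
    omega
  -- lift of `z` of order 3
  have hneg : (QuotientGroup.mk (-1 : Matrix.SpecialLinearGroup (Fin 2) F) : Matrix.ProjectiveSpecialLinearGroup (Fin 2) F) = 1 := by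
    rw [QuotientGroup.eq_one_iff, mem_center_iff]
    intro a; simp
  obtain ⟨A, hA, hA3⟩ : ∃ A : Matrix.SpecialLinearGroup (Fin 2) F,
      (QuotientGroup.mk A : Matrix.ProjectiveSpecialLinearGroup (Fin 2) F) = z ∧ A ^ 3 = 1 := by
    obtain ⟨A, rfl⟩ := QuotientGroup.mk_surjective z
    have h4 : A ^ 3 ∈ center (Matrix.SpecialLinearGroup (Fin 2) F) := (QuotientGroup.eq_one_iff _).1 hz3
    rcases sl_center h4 with h5 | h5
    · exact ⟨A, rfl, h5⟩
    · refine ⟨-1 * A, ?_, ?_⟩
      · show (QuotientGroup.mk (-1) * QuotientGroup.mk A : Matrix.ProjectiveSpecialLinearGroup (Fin 2) F) = _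
        rw [hneg, one_mul]
      · have h6 : Commute (-1 : Matrix.SpecialLinearGroup (Fin 2) F) A := by
          show -1 * A = A * -1
          simp
        rw [h6.mul_pow, h5, Odd.neg_one_pow (by decide)]
        simp
  have hA1 : A ≠ 1 := by
    rintro rfl
    exact hz1 hA.symm
  have hAm : A ≠ -1 := by
    rintro rfl
    exact hz1 (hA.symm.trans hneg)
  have htr : A.1 0 0 + A.1 1 1 ≠ 0 := by
    intro ht
    have hd := det_eq A
    have h11 : A.1 1 1 = -A.1 0 0 := by linear_combination ht
    have hsq : A * A = -1 := by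
      apply sl_ext
      · rw [sl_mul, neg_one_apply, sl_one00]; linear_combination A.1 0 0 * ht - hd
      · rw [sl_mul, neg_one_apply, sl_one01]; linear_combination A.1 0 1 * ht
      · rw [sl_mul, neg_one_apply, sl_one10]; linear_combination A.1 1 0 * ht
      · rw [sl_mul, neg_one_apply, sl_one11]; linear_combination A.1 1 1 * ht - hd
    rw [pow_succ, pow_two, hsq] at hA3
    apply hAm
    have : A = -1 * (-1 * A) := by simp
    rw [this, hA3, mul_one]
  have key : ∀ B : Matrix.SpecialLinearGroup (Fin 2) F,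
      (QuotientGroup.mk B : Matrix.ProjectiveSpecialLinearGroup (Fin 2) F) * z = z * QuotientGroup.mk B → A * B = B * A := by
    intro B hB
    rw [← hA] at hB
    have h4 : A⁻¹ * (B⁻¹ * A * B) ∈ center (Matrix.SpecialLinearGroup (Fin 2) F) := by
      apply (QuotientGroup.eq_one_iff _).1
      show (QuotientGroup.mk A)⁻¹ * ((QuotientGroup.mk B)⁻¹ * QuotientGroup.mk A * QuotientGroup.mk B) =
        (1 : Matrix.ProjectiveSpecialLinearGroup (Fin 2) F)
      rw [mul_assoc (QuotientGroup.mk B)⁻¹, ← hB]
      group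
    rcases sl_center h4 with h5 | h5
    · have h6 : A = B⁻¹ * A * B := by
        calc A = A * 1 := by rw [mul_one]
          _ = A * (A⁻¹ * (B⁻¹ * A * B)) := by rw [h5]
          _ = B⁻¹ * A * B := by group
      calc A * B = B * (B⁻¹ * A * B) := by group
        _ = B * A := by rw [← h6]
    · exfalso
      have h6 : A * B = -(B * A) := by
        have h7 : B⁻¹ * A * B = A * -1 := by
          calc B⁻¹ * A * B = A * (A⁻¹ * (B⁻¹ * A * B)) := by group
            _ = A * -1 := by rw [h5]
        calc A * B = B * (B⁻¹ * A * B) := by group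
          _ = B * (A * -1) := by rw [h7]
          _ = -(B * A) := by simp
      -- traces: `A = - B A B⁻¹`
      have h7 : A = -(B * A * B⁻¹) := by
        calc A = (A * B) * B⁻¹ := by group
          _ = -(B * A) * B⁻¹ := by rw [h6]
          _ = -(B * A * B⁻¹) := by simp
      have hd := det_eq B
      have e00 := congrArg (fun M : Matrix.SpecialLinearGroup (Fin 2) F => M.1 0 0) h7
      have e11 := congrArg (fun M : Matrix.SpecialLinearGroup (Fin 2) F => M.1 1 1) h7
      have n : ∀ (M : Matrix.SpecialLinearGroup (Fin 2) F) (i j : Fin 2), (-M).1 i j = -M.1 i j := fun M i j => rfl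
      simp only [n, sl_mul, sl_inv00, sl_inv01, sl_inv10, sl_inv11] at e00 e11
      have h8 : 2 * (A.1 0 0 + A.1 1 1) = 0 := by
        linear_combination e00 + e11 + (-(A.1 0 0 + A.1 1 1)) * hd
      exact (mul_eq_zero.1 h8).elim h2 htr
  obtain ⟨g, rfl⟩ := QuotientGroup.mk_surjective g
  obtain ⟨h, rfl⟩ := QuotientGroup.mk_surjective h
  have h4 := key g hg
  have h5 := key h hh
  by_contra hne
  have h6 : g * h ≠ h * g := by
    intro e
    apply hne
    show (QuotientGroup.mk (g * h) : Matrix.ProjectiveSpecialLinearGroup (Fin 2) F) = QuotientGroup.mk (h * g)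
    rw [e]
  rcases sl_cent h4 h5 h6 with h7 | h7
  · exact hA1 h7
  · exact hAm h7

end Cfsg.Agent.H334.Star
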